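import Cfsg.Agent.DS.Cl.Ten

/-!
# N2 classical, tensor decompositions: counting with matrix units (helper54)

* `card_eq_pow` : `|T| = |T ⊓ CE E| ^ (k ^ 2)`; `card_le_col` : cyclic vectors;
* `uu_sh_le` : the unitary elements commuting with the Jordan block `sh E`; `exists_J` : the regular unipotent isometry;
* `exists_tau`, `diag_le` : the semisimple elements.
-/

set_option autoImplicit false
set_option linter.unusedSectionVars false

namespace Cfsg.Agent.N2C.Ten

open Cfsg.Agent.DS.Cl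

section mu

variable {A : Type} [Ring A] {k : ℕ} {E : Fin k → Fin k → A}

/-- the elements commuting with the matrix units -/
def CE (E : Fin k → Fin k → A) : Subring A := Subring.centralizer {x | ∃ i j, x = E i j}

theorem mem_CE {x : A} : x ∈ CE E ↔ ∀ i j, x * E i j = E i j * x :=
  ⟨fun h i j => (h _ ⟨i, j, rfl⟩).symm, by rintro h _ ⟨i, j, rfl⟩; exact (h i j).symm⟩

/-- the elements commuting with `s` -/
def C1 (s : A) : Subring A := Subring.centralizer {s}

theorem mem_C1 {s x : A} : x ∈ C1 s ↔ x * s = s * x :=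
  ⟨fun h => (h s rfl).symm, by rintro h _ rfl; exact h.symm⟩

theorem coef_CE (h : MU0 E) (a : A) (i j : Fin k) : coef E a i j ∈ CE E := mem_CE.2 (h.coef_comm a i j)

theorem coef_sub (a b : A) (i j : Fin k) : coef E (a - b) i j = coef E a i j - coef E b i j := by
  simp only [coef, mul_sub, sub_mul, Finset.sum_sub_distrib]

theorem coef_mul_coef (h : MU0 E) (a b : A) (i j : Fin k) :
    coef E (a * b) i j = ∑ l, coef E a i l * coef E b l j := by
  have h1 : ∀ l, coef E a i l * coef E b l j = ∑ p, E p i * a * E l l * b * E j p := fun l => by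
    rw [show coef E b l j = ∑ p, E p l * b * E j p from rfl, Finset.mul_sum]
    exact Finset.sum_congr rfl fun p _ => by rw [← mul_assoc, ← mul_assoc, h.coef_mul]
  simp only [h1]
  rw [Finset.sum_comm]
  refine Finset.sum_congr rfl fun p _ => ?_
  rw [← Finset.sum_mul, ← Finset.sum_mul, ← Finset.mul_sum, h.sum, mul_one, mul_assoc (E p i) a b]

theorem coef_one (h : MU0 E) (i : Fin k) : coef E 1 i i = 1 := by
  simp only [coef, mul_one, h.mul_eq, h.sum]

theorem coef_eq (h : MU0 E) {a d : A} (hd : d ∈ CE E) {i j : Fin k} (e : E i i * a * E j j = d * E i j) :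
    coef E a i j = d :=
  sub_eq_zero.1 (h.eq_zero (mem_CE.1 (sub_mem (coef_CE h a i j) hd)) (i := i) (j := j)
    (by rw [sub_mul, h.coef_mul, e, sub_self]))

theorem coef_of (h : MU0 E) {d : Fin k → Fin k → A} (hd : ∀ i j, d i j ∈ CE E) (i j : Fin k) :
    coef E (∑ a, ∑ b, d a b * E a b) i j = d i j := by
  refine coef_eq h (hd i j) ?_
  have h1 : ∀ a b, E i i * (d a b * E a b) * E j j = if i = a then (if b = j then d a b * E i j else 0) else 0 := by
    intro a b
    rw [← mul_assoc, ← mem_CE.1 (hd a b), mul_assoc (d a b), h.mul, mul_assoc]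
    split_ifs with h2 h3
    · rw [h3, h.mul_eq]
    · rw [h.mul, if_neg h3, mul_zero]
    · rw [zero_mul, mul_zero]
  simp only [Finset.mul_sum, Finset.sum_mul, h1]
  simp

theorem card_eq_pow (h : MU0 E) {T : Subring A} (hE : ∀ i j, E i j ∈ T) :
    Nat.card T = Nat.card ↥(T ⊓ CE E) ^ (k ^ 2) := by
  have h1 : Nat.card (Fin k → Fin k → ↥(T ⊓ CE E)) = Nat.card ↥(T ⊓ CE E) ^ (k ^ 2) := by
    rw [Nat.card_fun, Nat.card_fun, Nat.card_fin, ← pow_mul, sq]
  rw [← h1]
  refine Nat.card_eq_of_bijective (fun x i j => ⟨coef E x i j, coef_mem hE x.2 i j, coef_CE h _ i j⟩)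
    ⟨fun x y e => Subtype.ext ?_, fun d => ⟨⟨∑ a, ∑ b, (d a b : A) * E a b, T.sum_mem fun a _ => T.sum_mem fun b _ =>
      T.mul_mem (d a b).2.1 (hE a b)⟩, funext₂ fun i j => Subtype.ext (coef_of h (fun a b => (d a b).2.2) i j)⟩⟩
  rw [h.expand x, h.expand y]
  exact Finset.sum_congr rfl fun i _ => Finset.sum_congr rfl fun j _ => by
    rw [show coef E x i j = coef E y i j from congrArg Subtype.val (congrFun (congrFun e i) j)]

/-- **cyclic vectors** -/
theorem card_le_col [Finite A] (h : MU0 E) {D : Subring A} (hE : ∀ i j, E i j ∈ D) (S : AddSubgroup A) {v : A} {o : Fin k}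
    (hv : v * E o o = v) (hS : ∀ x ∈ S, x * v ∈ D) (inj : ∀ x ∈ S, x * v = 0 → x = 0) {m : ℕ} (ι : Fin m → Fin k)
    (hz : ∀ x ∈ S, ∀ i, (∀ a, ι a ≠ i) → E i i * x * v = 0) : Nat.card S ≤ Nat.card ↥(D ⊓ CE E) ^ m := by
  have h1 : Nat.card (Fin m → ↥(D ⊓ CE E)) = Nat.card ↥(D ⊓ CE E) ^ m := by rw [Nat.card_fun, Nat.card_fin]
  rw [← h1]
  refine Nat.card_le_card_of_injective
    (fun x a => ⟨coef E (x * v) (ι a) o, coef_mem hE (hS x x.2) _ _, coef_CE h _ _ _⟩) fun x y e => ?_
  refine Subtype.ext (sub_eq_zero.1 (inj _ (sub_mem x.2 y.2) ?_))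
  rw [← one_mul (_ * v), ← h.sum, Finset.sum_mul]
  refine Finset.sum_eq_zero fun i _ => ?_
  by_cases hi : ∃ a, ι a = i
  · obtain ⟨a, rfl⟩ := hi
    rw [← hv, ← mul_assoc _ v, ← mul_assoc, ← h.coef_mul, sub_mul, coef_sub,
      show coef E (x * v) (ι a) o = coef E (y * v) (ι a) o from congrArg Subtype.val (congrFun e a), sub_self, zero_mul]
  · rw [← mul_assoc]
    exact hz _ (sub_mem x.2 y.2) i (not_exists.1 hi)

theorem inv_mem_fin [Finite A] {T : Subring A} {u : Aˣ} (hu : (u : A) ∈ T) : ((u⁻¹ : Aˣ) : A) ∈ T := by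
  have h1 : u⁻¹ = u ^ (orderOf u - 1) := by
    rw [inv_eq_iff_mul_eq_one, ← pow_succ', Nat.sub_add_cancel (orderOf_pos u), pow_orderOf_eq_one]
  rw [h1, Units.val_pow_eq_pow_val]
  exact T.pow_mem hu _

theorem exists_pow_one [Nontrivial A] {p : ℕ} (hp : p.Prime) (h0 : (p : A) = 0) {j : A} (hj : IsNilpotent j) :
    ∃ a, (1 + j) ^ p ^ a = 1 := by
  have : Fact p.Prime := ⟨hp⟩
  have : CharP A p := (CharP.charP_iff_prime_eq_zero hp).2 h0
  obtain ⟨a, ha⟩ := hj
  refine ⟨a, ?_⟩
  rw [add_pow_char_pow_of_commute _ _ (Commute.one_left j), one_pow,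
    pow_eq_zero_of_le (Nat.lt_pow_self hp.one_lt).le ha, add_zero]

end mu

section sh

variable {A : Type} [Ring A] {m : ℕ} {E : Fin (m + 1) → Fin (m + 1) → A}

/-- the Jordan block -/
def sh (E : Fin (m + 1) → Fin (m + 1) → A) : A := ∑ i : Fin m, E i.castSucc i.succ

theorem sh_mem {T : Subring A} (hE : ∀ i j, E i j ∈ T) : sh E ∈ T := T.sum_mem fun _ _ => hE _ _

variable (h : MU0 E)
include h

theorem sh_zero (b : Fin (m + 1)) : sh E * E 0 b = 0 := by
  rw [sh, Finset.sum_mul]
  exact Finset.sum_eq_zero fun i _ => by rw [h.mul, if_neg (Fin.succ_ne_zero i)]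

theorem sh_succ (i : Fin m) (b : Fin (m + 1)) : sh E * E i.succ b = E i.castSucc b := by
  rw [sh, Finset.sum_mul, Finset.sum_eq_single i, h.mul_eq]
  · exact fun j _ hj => by rw [h.mul, if_neg fun e => hj (Fin.succ_injective _ e)]
  · exact fun hi => absurd (Finset.mem_univ i) hi

theorem sh_pow (i b : Fin (m + 1)) : sh E ^ (i : ℕ) * E i b = E 0 b := by
  induction i using Fin.induction with
  | zero => simp
  | succ i ih => rw [Fin.val_succ, pow_succ, mul_assoc, sh_succ h, ← ih, Fin.val_castSucc]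

theorem sh_pow_last : sh E ^ m = E 0 (Fin.last m) := by
  rw [← mul_one (sh E ^ m), ← h.sum, Finset.mul_sum, Fin.sum_univ_castSucc, Finset.sum_eq_zero, zero_add]
  · exact sh_pow h (Fin.last m) _
  · intro i _
    obtain ⟨d, hd⟩ := Nat.exists_eq_add_of_lt i.2
    have h1 := sh_pow h i.castSucc i.castSucc
    rw [Fin.val_castSucc] at h1
    rw [show sh E ^ m = sh E ^ d * (sh E * sh E ^ (i : ℕ)) by rw [← pow_succ', ← pow_add]; congr 1; omega, mul_assoc,
      mul_assoc, h1, sh_zero h, mul_zero]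

theorem sh_nil : sh E ^ (m + 1) = 0 := by rw [pow_succ', sh_pow_last h, sh_zero h]

theorem sh_inj {j : A} (hj : j * sh E = sh E * j) (h0 : j * E (Fin.last m) (Fin.last m) = 0) : j = 0 := by
  have h1 : ∀ i b, j * E i b = 0 := fun i b => by
    induction i using Fin.reverseInduction with
    | last => rw [← h.mul_eq _ (Fin.last m), ← mul_assoc, h0, zero_mul]
    | cast i ih => rw [← sh_succ h, ← mul_assoc, hj, mul_assoc, ih, mul_zero]
  rw [← mul_one j, ← h.sum, Finset.mul_sum]
  exact Finset.sum_eq_zero fun i _ => h1 i i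

theorem nil_of {j : A} (hj : j * sh E = sh E * j) (h0 : j * E 0 (Fin.last m) = 0) : IsNilpotent j := by
  have h1 : j * E 0 0 = 0 := by rw [← h.mul_eq 0 (Fin.last m) 0, ← mul_assoc, h0, zero_mul]
  let y' : A := ∑ i : Fin m, E i.succ i.castSucc
  have h2 : y' * sh E = ∑ i : Fin m, E i.succ i.succ := by
    rw [Finset.sum_mul]
    refine Finset.sum_congr rfl fun i _ => ?_
    rw [sh, Finset.mul_sum, Finset.sum_eq_single i, h.mul_eq]
    · exact fun l _ hl => by rw [h.mul, if_neg fun e => hl (Fin.castSucc_injective _ e).symm]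
    · exact fun hi => absurd (Finset.mem_univ i) hi
  have h3 : j = j * y' * sh E := by
    rw [mul_assoc, h2, ← zero_add (j * _), ← h1, ← mul_add, ← Fin.sum_univ_succ fun i => E i i, h.sum, mul_one]
  have h4 : ∀ i, j ^ i = (j * y') ^ i * sh E ^ i := fun i => by
    induction i with
    | zero => simp
    | succ i ih =>
      rw [pow_succ, ih, mul_assoc, ← (Commute.pow_right (show Commute j (sh E) from hj) i).eq, pow_succ (j * y'),
        pow_succ' (sh E), mul_assoc, ← mul_assoc (j * y'), ← h3]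
  exact ⟨m + 1, by rw [h4, sh_nil h, mul_zero]⟩

end sh

variable {A : Type} [Ring A] [StarRing A]

/-- the number of unitary elements of a subring -/
noncomputable def uu (T : Subring A) : ℕ := Nat.card {x : A // x ∈ T ∧ x * star x = 1}

theorem uu_le_card [Finite A] (T : Subring A) : uu T ≤ Nat.card T :=
  Nat.card_le_card_of_injective (fun x => ⟨x.1, x.2.1⟩) fun _ _ e => Subtype.ext (Subtype.mk.inj e)

theorem uu_mono [Finite A] {T T' : Subring A} (h : T ≤ T') : uu T ≤ uu T' :=
  Nat.card_le_card_of_injective (fun x => ⟨x.1, h x.2.1, x.2.2⟩) fun _ _ e => Subtype.ext (Subtype.mk.inj e)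

theorem uu_pos [Finite A] (T : Subring A) : 0 < uu T :=
  have : Nonempty {x : A // x ∈ T ∧ x * star x = 1} := ⟨⟨1, one_mem _, by simp⟩⟩
  Nat.card_pos

/-- linear groups -/
theorem uu_sq_le [Finite A] {ε : A} (hε : Eps ε) {T : Subring A} (h1 : ε ∈ T) (hs : ∀ x ∈ T, star x ∈ T) :
    uu T ^ 2 ≤ Nat.card T := by
  have key : ∀ {η : A}, Eps η → ∀ x y : A, x * star x = 1 → y * star y = 1 → η * x = η * y → x = y := by
    intro η hη x y hx hy e
    have h2 : η * star x = η * star y := by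
      calc η * star x = star y * (η * y) * star x := by
            rw [← mul_assoc, hη.comm, mul_assoc η, mul_eq_one_comm.1 hy, mul_one]
        _ = η * star y := by rw [← e, ← mul_assoc, mul_assoc, hx, mul_one, hη.comm]
    have h3 := congrArg star h2
    rw [star_mul, star_mul, star_star, star_star, hη.st.comm, hη.st.comm] at h3
    rw [hη.split x, hη.split y, e, h3]
  rw [uu, sq, ← Nat.card_prod]
  refine Nat.card_le_card_of_injective
    (fun x => (⟨ε * x.1 + star ε * x.2, add_mem (mul_mem h1 x.1.2.1) (mul_mem (hs _ h1) x.2.2.1)⟩ : T)) fun x y e => ?_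
  have h2 : ε * x.1 + star ε * x.2 = ε * y.1 + star ε * y.2 := Subtype.mk.inj e
  have h3 := congrArg (ε * ·) h2
  have h4 := congrArg (star ε * ·) h2
  simp only [mul_add, ← mul_assoc, hε.idem, hε.ms, hε.sm, hε.st.idem, zero_mul, add_zero, zero_add] at h3 h4
  exact Prod.ext (Subtype.ext (key hε _ _ x.1.2.2 y.1.2.2 h3)) (Subtype.ext (key hε.st _ _ x.2.2.2 y.2.2.2 h4))

/-- the centre has an element of trace one and an invertible skew element -/
structure LU (c : A) (δ : Aˣ) : Prop where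
  cc : c ∈ Subring.center A
  ca : c + star c = 1
  dc : (δ : A) ∈ Subring.center A
  ds : star (δ : A) = -δ

section J

variable {m : ℕ} {E : Fin (m + 1) → Fin (m + 1) → A} {c : A} {δ : Aˣ}

theorem star_sh (hs : ∀ i j, star (E i j) = E j.rev i.rev) : star (sh E) = sh E := by
  rw [sh, star_sum, ← Equiv.sum_comp Fin.revPerm]
  exact Finset.sum_congr rfl fun i _ => by rw [hs, Fin.rev_succ, Fin.rev_castSucc, Fin.revPerm_apply, Fin.rev_rev]

theorem star_CE {k : ℕ} {E : Fin k → Fin k → A} {σ : Fin k → Fin k} (hs : ∀ i j, star (E i j) = E (σ j) (σ i)) {x : A}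
    (hx : x ∈ CE E) : star x ∈ CE E := mem_CE.2 fun i j => by
  rw [← star_star (E i j), ← star_mul, ← star_mul, hs, mem_CE.1 hx]

/-- skew elements of a module over the centre -/
theorem LU.sk_sq_le [Finite A] (l : LU c δ) (N : AddSubgroup A) (hN : ∀ x ∈ N, c * δ * x ∈ N) :
    Nat.card {x : A // x ∈ N ∧ star x = -x} ^ 2 ≤ Nat.card N := by
  rw [sq, ← Nat.card_prod]
  refine Nat.card_le_card_of_injective
    (fun x => (⟨x.1 + c * δ * x.2, add_mem x.1.2.1 (hN _ x.2.2.1)⟩ : N)) fun x y e => ?_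
  have h2 : x.1 + c * δ * x.2 = y.1 + c * δ * y.2 := Subtype.mk.inj e
  have h1 : ∀ b : A, star b = -b → star (c * δ * b) = star c * δ * b := fun b hb => by
    rw [star_mul, star_mul, hb, l.ds, neg_mul, neg_mul, mul_neg, neg_neg, cen_comm (star_cen l.cc) (δ : A),
      cen_comm (mul_mem (star_cen l.cc) l.dc)]
  have h3 := congrArg star h2
  rw [star_add, star_add, h1 _ x.2.2.2, h1 _ y.2.2.2, x.1.2.2, y.1.2.2] at h3
  have h4 : (c + star c) * δ * x.2 = (c + star c) * δ * y.2 := by
    have h5 := congrArg₂ (· + ·) h2 h3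
    simp only [add_add_add_comm _ (c * δ * _), add_neg_cancel, zero_add] at h5
    rw [add_mul, add_mul, add_mul, h5]
  rw [l.ca, one_mul, Units.mul_right_inj] at h4
  rw [h4, add_left_inj] at h2
  exact Prod.ext (Subtype.ext h2) (Subtype.ext h4)

/-- **the centraliser of the Jordan block** -/
theorem LU.uu_sh_le [Finite A] (l : LU c δ) (h : MU0 E) (hs : ∀ i j, star (E i j) = E j.rev i.rev) {T : Subring A}
    (hE : ∀ i j, E i j ∈ T) (hC : Subring.center A ≤ T) (hT : ∀ x ∈ T, star x ∈ T) {b : ℕ}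
    (hb : Nat.card ↥(T ⊓ CE E) ≤ b ^ 2) : uu (T ⊓ C1 (sh E)) ≤ uu (T ⊓ CE E) * b ^ m := by
  set w := E 0 (Fin.last m) with hw
  have hw1 : star w = w := by rw [hw, hs, Fin.rev_last, Fin.rev_zero]
  have hw2 : ∀ x, x * sh E = sh E * x → x * w = w * x := fun x hx => by
    rw [hw, ← sh_pow_last h]
    exact (Commute.pow_right (show Commute x (sh E) from hx) m).eq
  let N : AddSubgroup A :=
    { carrier := {j | j ∈ T ∧ j * sh E = sh E * j ∧ j * w = 0}
      add_mem' := fun ha hb => ⟨add_mem ha.1 hb.1, by rw [add_mul, mul_add, ha.2.1, hb.2.1],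
        by rw [add_mul, ha.2.2, hb.2.2, add_zero]⟩
      zero_mem' := ⟨zero_mem _, by simp, zero_mul _⟩
      neg_mem' := fun ha => ⟨neg_mem ha.1, by rw [neg_mul, mul_neg, ha.2.1], by rw [neg_mul, ha.2.2, neg_zero]⟩ }
  have hN : ∀ z ∈ Subring.center A, ∀ x ∈ N, z * x ∈ N := fun z hz x hx =>
    ⟨mul_mem (hC hz) hx.1, by rw [mul_assoc, hx.2.1, ← mul_assoc, ← cen_comm hz, mul_assoc],
      by rw [mul_assoc, hx.2.2, mul_zero]⟩
  have h1 : Nat.card N ≤ Nat.card ↥(T ⊓ CE E) ^ m :=
    card_le_col h hE N (h.mul_eq (Fin.last m) (Fin.last m) (Fin.last m)) (fun x hx => mul_mem hx.1 (hE _ _))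
      (fun x hx => sh_inj h hx.2.1) Fin.castSucc fun x hx i hi => by
        obtain rfl : i = Fin.last m := by
          by_contra hl
          exact hi (i.castPred hl) (Fin.castSucc_castPred i hl)
        rw [← h.mul_eq _ 0, mul_assoc _ _ x, ← hw, ← hw2 x hx.2.1, hx.2.2, mul_zero, zero_mul]
  have h2 : Nat.card {x : A // x ∈ N ∧ star x = -x} ≤ b ^ m := by
    refine (Nat.pow_le_pow_iff_left two_ne_zero).1 ((l.sk_sq_le N (hN _ (mul_mem l.cc l.dc))).trans (h1.trans ?_))
    rw [← pow_mul, mul_comm, pow_mul]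
    exact Nat.pow_le_pow_left hb m
  refine le_trans ?_ (Nat.mul_le_mul_left _ h2)
  have key : ∀ x : {x : A // x ∈ T ⊓ C1 (sh E) ∧ x * star x = 1}, ∃ (d : {x : A // x ∈ T ⊓ CE E ∧ x * star x = 1})
      (Y : {x : A // x ∈ N ∧ star x = -x}), Y.1 * (1 + c * (star d.1 * x - 1)) = star d.1 * x - 1 := by
    rintro ⟨x, ⟨hx, hx'⟩, hu⟩
    replace hx' := mem_C1.1 hx'
    set d := coef E x 0 0
    have hd : d ∈ CE E := coef_CE h x 0 0
    have hd' := star_CE hs hd
    have h3 : x * w = d * w := by rw [hw, h.coef_mul, mul_assoc, hw2 x hx', ← mul_assoc, hw, h.mul_eq]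
    have h4 : star x * w = star d * w := by
      rw [← hw1, ← star_mul, ← hw2 x hx', h3, star_mul, hw1, mem_CE.1 hd']
    have h5 : d * star d = 1 := sub_eq_zero.1 (h.eq_zero (mem_CE.1 (sub_mem (mul_mem hd hd') (one_mem _)))
      (i := 0) (j := Fin.last m) (by
        rw [sub_mul, one_mul, mul_assoc, mem_CE.1 hd', ← mul_assoc, ← hw, ← h3, mul_assoc, ← mem_CE.1 hd', ← hw, ← h4,
          ← mul_assoc, hu, one_mul, sub_self]))
    have hdT : d ∈ T := coef_mem hE hx 0 0
    have h6 : star d * sh E = sh E * star d := by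
      rw [sh, Finset.mul_sum, Finset.sum_mul]
      exact Finset.sum_congr rfl fun i _ => mem_CE.1 hd' _ _
    have h7 : star d * x - 1 ∈ N := ⟨sub_mem (mul_mem (hT _ hdT) hx) (one_mem _),
      by rw [sub_mul, mul_sub, mul_assoc, hx', ← mul_assoc, h6, mul_assoc, one_mul, mul_one],
      by rw [sub_mul, mul_assoc, h3, ← mul_assoc, mul_eq_one_comm.1 h5, sub_self]⟩
    have h8 : star (star d * x - 1) * (star d * x - 1) = -(star d * x - 1) - star (star d * x - 1) := by
      rw [star_sub, star_mul, star_star, star_one, sub_mul, mul_sub, mul_assoc, ← mul_assoc d, h5, one_mul,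
        mul_eq_one_comm.1 hu, mul_one, one_mul]
      abel
    refine ⟨⟨d, ⟨hdT, hd⟩, h5⟩, ?_⟩
    change ∃ Y : {x : A // x ∈ N ∧ star x = -x}, Y.1 * (1 + c * (star d * x - 1)) = star d * x - 1
    generalize star d * x - 1 = j at h7 h8
    have h9 := hN c l.cc j h7
    obtain ⟨u, hu⟩ := (nil_of h h9.2.1 h9.2.2).isUnit_one_add
    have h10 : (u : A) * sh E = sh E * u := by rw [hu, add_mul, mul_add, h9.2.1, one_mul, mul_one]
    have h11 : (u : A) * w = w := by rw [hu, add_mul, h9.2.2, one_mul, add_zero]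
    refine ⟨⟨j * (u⁻¹ : Aˣ), ⟨mul_mem h7.1 (inv_mem_fin (hu ▸ add_mem (one_mem _) h9.1)), ?_, ?_⟩, ?_⟩,
      show j * (u⁻¹ : Aˣ) * (1 + c * j) = j by rw [← hu, Units.inv_mul_cancel_right]⟩
    · rw [mul_assoc, ← (Commute.units_inv_left (show Commute (u : A) (sh E) from h10)).eq.symm, ← mul_assoc, h7.2.1,
        mul_assoc]
    · rw [mul_assoc, ← h11, Units.inv_mul_cancel_left, h7.2.2]
    · rw [star_mul, ← Units.mul_left_inj u, neg_mul, Units.inv_mul_cancel_right, ← Units.coe_star_inv, mul_assoc,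
        Units.inv_mul_eq_iff_eq_mul, Units.coe_star, hu, star_add, star_one, star_mul, mul_add, mul_one, mul_neg, add_mul,
        one_mul, ← mul_assoc, cen_comm l.cc, cen_comm (star_cen l.cc), mul_assoc, mul_assoc, eq_neg_iff_add_eq_zero,
        add_add_add_comm, ← add_mul, l.ca, one_mul, h8]
      abel
  choose d Y hY using key
  rw [uu, uu, ← Nat.card_prod]
  refine Nat.card_le_card_of_injective (fun x => (d x, Y x)) fun x y e => Subtype.ext ?_
  have h3 := hY x
  have h4 := hY y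
  rw [← (Prod.mk.inj e).1, ← (Prod.mk.inj e).2] at h4
  have h5 : ∀ j, (Y x).1 * (1 + c * j) = j → (1 - c * (Y x).1) * j = Y x ∧ (1 - c * (Y x).1) * (1 + c * j) = 1 :=
    fun j hj => ⟨by
      rw [mul_add, mul_one, ← mul_assoc, cen_comm l.cc] at hj
      rw [sub_mul, one_mul, sub_eq_iff_eq_add, hj], by rw [sub_mul, one_mul, mul_assoc, hj, add_sub_cancel_right]⟩
  have h6 := (IsUnit.of_mul_eq_one _ (h5 _ h3).2).mul_left_cancel ((h5 _ h3).1.trans (h5 _ h4).1.symm)
  exact (IsUnit.of_mul_eq_one _ (mul_eq_one_comm.1 (d x).2.2)).mul_left_cancel (sub_left_injective h6)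

/-- **Cayley transform** of a symmetric nilpotent element -/
theorem LU.exists_J [Finite A] (l : LU c δ) {y : A} (hy : star y = y) (hn : IsNilpotent y) {B : Subring A}
    (hC : Subring.center A ≤ B) (hB : y ∈ B) : ∃ J : Aˣ, (J : A) ∈ B ∧ (J : A) * star (J : A) = 1 ∧
      IsNilpotent ((J : A) - 1) ∧ ∀ x : A, x * J = J * x → x * y = y * x := by
  have h1 : IsNilpotent (δ * y) := (show Commute (δ : A) y from (cen_comm l.dc y).symm).isNilpotent_mul_left hn
  have h2 : star (δ * y) = -(δ * y) := by rw [star_mul, hy, l.ds, mul_neg, cen_comm l.dc]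
  have h3 : δ * y ∈ B := mul_mem (hC l.dc) hB
  suffices h : ∃ J : Aˣ, (J : A) ∈ B ∧ (J : A) * star (J : A) = 1 ∧ IsNilpotent ((J : A) - 1) ∧
      ∀ x : A, x * J = J * x → x * (δ * y) = δ * y * x by
    obtain ⟨J, a1, a2, a3, a4⟩ := h
    refine ⟨J, a1, a2, a3, fun x hx => ?_⟩
    have h4 := a4 x hx
    rwa [← mul_assoc, cen_comm l.dc, mul_assoc, mul_assoc, Units.mul_right_inj] at h4
  generalize δ * y = Y at h1 h2 h3
  obtain ⟨u, hu⟩ := ((show Commute c Y from (cen_comm l.cc Y).symm).isNilpotent_mul_left h1).isUnit_one_sub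
  have h4 : star (u : A) = u + Y := by
    rw [hu, star_sub, star_one, star_mul, h2, neg_mul, cen_comm (star_cen l.cc), eq_sub_of_add_eq' l.ca, sub_mul, one_mul]
    abel
  have h5 : Commute (u : A) Y := by
    rw [hu]
    exact (Commute.one_left Y).sub_left ((show Commute c Y from (cen_comm l.cc Y).symm).mul_left (Commute.refl Y))
  have h6 : ((star u * u⁻¹ : Aˣ) : A) - 1 = Y * (u⁻¹ : Aˣ) := by
    rw [Units.val_mul, Units.coe_star, h4, add_mul, Units.mul_inv, add_sub_cancel_left]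
  have h7 : Commute u (star u) := Units.ext (by
    rw [Units.val_mul, Units.val_mul, Units.coe_star, h4]
    exact (Commute.refl _).add_right h5)
  have huB : (u : A) ∈ B := hu ▸ sub_mem (one_mem _) (mul_mem (hC l.cc) h3)
  refine ⟨star u * u⁻¹, mul_mem (show star (u : A) ∈ B from h4 ▸ add_mem huB h3) (inv_mem_fin huB), ?_,
    h6 ▸ h5.units_inv_left.symm.isNilpotent_mul_right h1, fun x hx => ?_⟩
  · rw [← Units.coe_star, ← Units.val_mul, star_mul, star_star, star_inv, mul_assoc, ← mul_assoc u⁻¹,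
      h7.inv_inv.eq, mul_assoc, inv_mul_cancel, mul_one, mul_inv_cancel, Units.val_one]
  · have h8 : Commute x (Y * ((u⁻¹ : Aˣ) : A)) := h6 ▸ (show Commute x _ from hx).sub_right (Commute.one_right x)
    have h9 : ((u⁻¹ : Aˣ) : A) = 1 + c * (Y * (u⁻¹ : Aˣ)) := by
      rw [← mul_assoc, ← Units.mul_inv u, ← add_mul, hu, sub_add_cancel, one_mul]
    have h10 : Commute x (u : A) := by
      have h11 : Commute x ((u⁻¹ : Aˣ) : A) := by
        rw [h9]
        exact (Commute.one_right x).add_right ((show Commute x c from cen_comm l.cc x).mul_right h8)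
      simpa using h11.units_inv_right
    have h11 := h8.mul_right h10
    rwa [Units.inv_mul_cancel_right] at h11

end J

end Cfsg.Agent.N2C.Ten
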