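import Mathlib

/-!
# N2 classical, tensor decompositions: the inequalities (helper54)
-/

set_option autoImplicit false

namespace Cfsg.Agent.N2C.Ten

theorem fin_le {c L I q z t e κ S N : ℕ} (hq : 0 < q) (h1 : c * q ^ 2 ≤ κ * q ^ e) (h2 : L * q ^ 3 ≤ t * z * q ^ S)
    (h3 : q ^ N ≤ 2 * q * I) (h4 : 2 * t * z * κ ^ 3 * q ^ (3 * e + S) ≤ q ^ (N + 8)) : c ^ 3 * L ≤ I := by
  refine Nat.le_of_mul_le_mul_right ?_ (show 0 < 2 * q ^ 9 by positivity)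
  calc c ^ 3 * L * (2 * q ^ 9) = 2 * ((c * q ^ 2) ^ 3 * (L * q ^ 3)) := by ring
    _ ≤ 2 * ((κ * q ^ e) ^ 3 * (t * z * q ^ S)) := Nat.mul_le_mul_left _ (Nat.mul_le_mul (Nat.pow_le_pow_left h1 3) h2)
    _ = 2 * t * z * κ ^ 3 * q ^ (3 * e + S) := by ring
    _ ≤ q ^ N * q ^ 8 := by rwa [← pow_add]
    _ ≤ 2 * q * I * q ^ 8 := Nat.mul_le_mul_right _ h3
    _ = _ := by ring

theorem pw_le {q t T z κ x y E N : ℕ} (hq : 0 < q) (h1 : t ≤ T * q ^ x) (h2 : 2 * T * z * κ ^ 3 ≤ q ^ y)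
    (h3 : x + y + E ≤ N) : 2 * t * z * κ ^ 3 * q ^ E ≤ q ^ N :=
  calc 2 * t * z * κ ^ 3 * q ^ E ≤ 2 * (T * q ^ x) * z * κ ^ 3 * q ^ E := by gcongr
    _ = q ^ x * (2 * T * z * κ ^ 3) * q ^ E := by ring
    _ ≤ q ^ x * q ^ y * q ^ E := by gcongr
    _ ≤ q ^ N := by rw [← pow_add, ← pow_add]; exact Nat.pow_le_pow_right hq h3

theorem sq_le_six {q : ℕ} (hq : 2 ≤ q) (m : ℕ) : (m + 1) * m ≤ 6 * q ^ (m - 2) := by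
  refine le_trans ?_ (Nat.mul_le_mul_left 6 (Nat.pow_le_pow_left hq _))
  rcases Nat.lt_or_ge m 2 with h | h
  · interval_cases m <;> simp
  · induction m, h using Nat.le_induction with
    | base => simp
    | succ m hm ih =>
      rw [show m + 1 - 2 = m - 2 + 1 by omega, pow_succ]
      nlinarith

theorem six_le {q z j : ℕ} (hq : 2 ≤ q) (hz : z ≤ q + 1) : 2 * 6 * z * (q ^ j) ^ 3 ≤ q ^ (6 + 3 * j) := by
  have h1 : 2 ^ 5 ≤ q ^ 5 := Nat.pow_le_pow_left hq 5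
  rw [pow_add, ← pow_mul, mul_comm j 3, pow_succ' q 5]
  exact Nat.mul_le_mul_right _ (by nlinarith)

theorem numA {q z t a b m : ℕ} (hq : 2 ≤ q) (hz : z ≤ q + 1) (ha : 4 ≤ a) (hb : 4 ≤ b) (hm : 1 ≤ m) (ht : t ≤ (m + 1) * m) :
    2 * t * z * (q ^ 3) ^ 3 * q ^ (3 * (a * (b * m) ^ 2) + (a ^ 2 + b ^ 2 + m ^ 2)) ≤ q ^ ((a * (b * m)) ^ 2 + 8) := by
  refine pw_le (by omega) (ht.trans (sq_le_six hq m)) (six_le hq hz) ?_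
  obtain ⟨x, rfl⟩ := Nat.exists_eq_add_of_le ha
  obtain ⟨y, rfl⟩ := Nat.exists_eq_add_of_le hb
  obtain ⟨w, rfl⟩ := Nat.exists_eq_add_of_le hm
  ring_nf
  omega

theorem numB {q z t a m : ℕ} (hq : 2 ≤ q) (hz : z ≤ q + 1) (ha : 3 ≤ a) (hm : 1 ≤ m) (ht : t ≤ (m + 1) * m) :
    2 * t * z * (q ^ 2) ^ 3 * q ^ (3 * (3 * m ^ 2 * (a + 1)) + (a ^ 2 + 3 ^ 2 + m ^ 2)) ≤ q ^ ((a * (3 * m)) ^ 2 + 8) := by
  refine pw_le (by omega) (ht.trans (sq_le_six hq m)) (six_le hq hz) ?_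
  obtain ⟨x, rfl⟩ := Nat.exists_eq_add_of_le ha
  obtain ⟨w, rfl⟩ := Nat.exists_eq_add_of_le hm
  ring_nf
  omega

theorem numC {q z t κ a m : ℕ} (hq : 2 ≤ q) (hz : 2 * 6 * z * κ ^ 3 ≤ q ^ 12) (ha : 2 ≤ a) (hn : 5 ≤ a * (2 * m))
    (ht : t ≤ (m + 1) * m) :
    2 * t * z * κ ^ 3 * q ^ (3 * (2 * m ^ 2 * a) + (a ^ 2 + 2 ^ 2 + m ^ 2)) ≤ q ^ ((a * (2 * m)) ^ 2 + 8) := by
  refine pw_le (by omega) (ht.trans (sq_le_six hq m)) hz ?_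
  rcases Nat.lt_or_ge m 2 with h | h
  · interval_cases m
    · omega
    · obtain ⟨x, rfl⟩ := Nat.exists_eq_add_of_le (show 3 ≤ a by omega)
      ring_nf
      omega
  · obtain ⟨x, rfl⟩ := Nat.exists_eq_add_of_le ha
    obtain ⟨w, rfl⟩ := Nat.exists_eq_add_of_le h
    rw [Nat.add_sub_cancel_left]
    ring_nf
    omega

theorem numL {q z : ℕ} (hq : 2 ≤ q) (hz : z ≤ q) : 2 * 6 * z * (q ^ 2) ^ 3 ≤ q ^ 12 := by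
  have h1 : 2 ^ 5 ≤ q ^ 5 := Nat.pow_le_pow_left hq 5
  calc 2 * 6 * z * (q ^ 2) ^ 3 ≤ q ^ 5 * q * (q ^ 2) ^ 3 := by gcongr; omega
    _ = _ := by ring

theorem numU {q z : ℕ} (hq : 3 ≤ q) (hz : z ≤ q + 1) : 2 * 6 * z * ((q + 1) ^ 2) ^ 3 ≤ q ^ 12 := by
  have h1 : 3 ^ 5 ≤ q ^ 5 := Nat.pow_le_pow_left hq 5
  have h2 : (3 * (q + 1)) ^ 7 ≤ (4 * q) ^ 7 := Nat.pow_le_pow_left (by omega) 7
  have h3 : 2 * 6 * z * ((q + 1) ^ 2) ^ 3 ≤ 12 * (q + 1) ^ 7 :=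
    calc _ ≤ 2 * 6 * (q + 1) * ((q + 1) ^ 2) ^ 3 := by gcongr
      _ = _ := by ring
  rw [mul_pow, mul_pow] at h2
  rw [show q ^ 12 = q ^ 5 * q ^ 7 by ring]
  nlinarith [Nat.mul_le_mul_right (q ^ 7) h1]

end Cfsg.Agent.N2C.Ten
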