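import Cfsg.Agent.N2.Cl.Ten.Alg

/-!
# N2 classical, tensor decompositions: semisimple elements of small factors (helper54)

`LU.exists_tau` : a regular element of order 3 or 4 in dimension 2, 3; `exists_diag` : `diag (lam, lam⁻¹)`.
-/

set_option autoImplicit false
set_option linter.unusedSectionVars false

namespace Cfsg.Agent.N2C.Ten

open Cfsg.Agent.DS.Cl
open scoped commutatorElement

variable {A : Type} [Ring A] [StarRing A] [Finite A]

omit [StarRing A] in
theorem isUnit_cast {p r : ℕ} (h0 : (p : A) = 0) (hc : r.Coprime p) : IsUnit (r : A) := by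
  obtain ⟨a, b, hab⟩ := Nat.isCoprime_iff_coprime.2 hc
  have h1 := congrArg (Int.cast : ℤ → A) hab
  push_cast at h1
  rw [h0, mul_zero, add_zero] at h1
  exact IsUnit.of_mul_eq_one _ (mul_eq_one_comm.1 h1)

theorem skew_uni {a : A} (h1 : star a = -a) (h2 : a * a = 0) : (1 + a) * star (1 + a) = 1 := by
  rw [star_add, star_one, h1, mul_add, mul_one, mul_neg, add_mul, one_mul, h2, add_zero, add_neg_cancel_right]

/-- a product of two transvections -/
theorem LU.exists_tau {m : ℕ} {E : Fin (m + 1) → Fin (m + 1) → A} {c : A} {δ : Aˣ} (l : LU c δ) (h : MU0 E)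
    (hs : ∀ i j, star (E i j) = E j.rev i.rev) (hm : 1 ≤ m) (hm' : m ≤ 2) {p : ℕ} (hp : p.Prime) (h0 : (p : A) = 0)
    {G : Subgroup Aˣ} (hG : ∀ u : Aˣ, (u : A) * star (u : A) = 1 → IsNilpotent ((u : A) - 1) → u ∈ G) {B : Subring A}
    (hC : Subring.center A ≤ B) (hE : ∀ i j, E i j ∈ B) : ∃ s ∈ G, (s : A) ∈ B ∧ (∃ r, p.Coprime r ∧ s ^ r = 1) ∧
      ∀ D : Subring A, (∀ i j, E i j ∈ D) → Nat.card ↥(D ⊓ C1 (s : A)) ≤ Nat.card ↥(D ⊓ CE E) ^ (m + 1) := by
  obtain ⟨ρ, hρ, hρ'⟩ : ∃ ρ : ℕ, ρ.Coprime p ∧ (ρ = 3 ∧ p.Coprime 3 ∨ ρ = 2 ∧ p.Coprime 4) := by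
    by_cases h2 : p = 2
    · exact ⟨3, by rw [h2]; norm_num, Or.inl ⟨rfl, by rw [h2]; norm_num⟩⟩
    · have h3 := (Nat.coprime_primes hp Nat.prime_two).2 h2
      exact ⟨2, h3.symm, Or.inr ⟨rfl, h3.pow_right 2⟩⟩
  obtain ⟨τ, hτ⟩ := (isUnit_cast h0 hρ).neg
  have hτc : (τ : A) ∈ Subring.center A := hτ ▸ neg_mem (natCast_mem _ ρ)
  have hτs : star (τ : A) = τ := by rw [hτ, star_neg, star_natCast]
  set i := Fin.last m with hi
  have hne : (0 : Fin (m + 1)) ≠ i := fun e => by have := congrArg Fin.val e; simp [hi] at this; omega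
  have e1 : star (E 0 i) = E 0 i := by rw [hs, hi, Fin.rev_last, Fin.rev_zero]
  have e2 : star (E i 0) = E i 0 := by rw [hs, hi, Fin.rev_last, Fin.rev_zero]
  have hκc : ((τ * δ⁻¹ : Aˣ) : A) ∈ Subring.center A := mul_mem hτc (inv_cen l.dc)
  have hκs : star ((τ * δ⁻¹ : Aˣ) : A) = -(τ * δ⁻¹ : Aˣ) := by
    rw [Units.val_mul, star_mul, hτs, cen_comm hτc, ← mul_neg, Units.mul_right_inj, ← Units.coe_star_inv,
      ← Units.val_neg, Units.val_inj, inv_eq_iff_eq_inv, inv_neg, inv_inv]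
    exact Units.ext l.ds
  have hκ : (δ : A) * (τ * δ⁻¹ : Aˣ) = τ := by rw [Units.val_mul, ← mul_assoc, cen_comm hτc, Units.mul_inv_cancel_right]
  generalize τ * δ⁻¹ = κ at hκc hκs hκ
  have mm : ∀ {x y : A}, y ∈ Subring.center A → ∀ a b, x * a * (y * b) = x * y * (a * b) := fun hy a b => by
    rw [mul_assoc, ← mul_assoc a, cen_comm hy a, mul_assoc, mul_assoc]
  obtain ⟨a, ha⟩ : ∃ a, a = δ * E 0 i := ⟨_, rfl⟩
  obtain ⟨b, hb⟩ : ∃ b, b = κ * E i 0 := ⟨_, rfl⟩
  have a1 : star a = -a := by rw [ha, star_mul, e1, l.ds, mul_neg, cen_comm l.dc]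
  have b1 : star b = -b := by rw [hb, star_mul, e2, hκs, mul_neg, cen_comm hκc]
  have a2 : a * a = 0 := by rw [ha, mm l.dc, h.mul, if_neg hne.symm, mul_zero]
  have b2 : b * b = 0 := by rw [hb, mm hκc, h.mul, if_neg hne, mul_zero]
  have ab : a * b = τ * E 0 0 := by rw [ha, hb, mm hκc, h.mul_eq, hκ]
  have ba : b * a = τ * E i i := by rw [ha, hb, mm l.dc, h.mul_eq, cen_comm l.dc, hκ]
  have a3 : E 0 0 * a = a := by rw [ha, ← mul_assoc, cen_comm l.dc, mul_assoc, h.mul_eq]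
  have a4 : a * E 0 0 = 0 := by rw [ha, mul_assoc, h.mul, if_neg hne.symm, mul_zero]
  have a5 : a * E i i = a := by rw [ha, mul_assoc, h.mul_eq]
  have b3 : E 0 0 * b = 0 := by rw [hb, ← mul_assoc, cen_comm hκc, mul_assoc, h.mul, if_neg hne, mul_zero]
  have b4 : b * E 0 0 = b := by rw [hb, mul_assoc, h.mul_eq]
  have b5 : b * E i i = 0 := by rw [hb, mul_assoc, h.mul, if_neg hne, mul_zero]
  have haB : a ∈ B := ha ▸ mul_mem (hC l.dc) (hE _ _)
  have hbB : b ∈ B := hb ▸ mul_mem (hC hκc) (hE _ _)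
  let s := mkU _ (skew_uni a1 a2) * mkU _ (skew_uni b1 b2)
  obtain ⟨n, hn⟩ : ∃ n, n = a + b + τ * E 0 0 := ⟨_, rfl⟩
  have hsv : (s : A) = 1 + n := by
    change (1 + a) * (1 + b) = _
    rw [add_mul, mul_add, mul_add, ab, hn]
    noncomm_ring
  have n1 : n * E 0 0 = b + τ * E 0 0 := by rw [hn, add_mul, add_mul, a4, b4, zero_add, mul_assoc, h.mul_eq]
  have n2 : n * E i i = a := by rw [hn, add_mul, add_mul, a5, b5, mul_assoc, h.mul, if_neg hne, mul_zero, add_zero, add_zero]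
  have n3 : n * n = τ * (E 0 0 + E i i) + τ * n := by
    conv_lhs => rhs; rw [hn]
    rw [mul_add, mul_add, ← mul_assoc, cen_comm hτc n, mul_assoc, n1, hn, add_mul, add_mul, add_mul, add_mul, a2, b2, ab,
      ba, mul_assoc, a3, mul_assoc, b3]
    noncomm_ring
  have n4 : n * (n * n) = τ * n + τ * (n * n) := by
    rw [n3, mul_add, ← mul_assoc, ← mul_assoc, cen_comm hτc n, mul_assoc, mul_assoc, ← n3, mul_add n, n1, n2, add_comm _ a,
      ← add_assoc, ← hn]
  refine ⟨s, mul_mem (hG _ (skew_uni a1 a2) ⟨2, by rw [mkU_val, add_sub_cancel_left, sq, a2]⟩)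
    (hG _ (skew_uni b1 b2) ⟨2, by rw [mkU_val, add_sub_cancel_left, sq, b2]⟩),
    mul_mem (add_mem (one_mem _) haB) (add_mem (one_mem _) hbB), ?_, fun D hD => ?_⟩
  · rw [hτ] at n4
    rcases hρ' with ⟨rfl, h3⟩ | ⟨rfl, h3⟩ <;> refine ⟨_, h3, Units.ext ?_⟩ <;>
      rw [Units.val_pow_eq_pow_val, hsv, Units.val_one]
    · rw [show (1 + n) ^ 3 = 1 + 3 * n + 3 * (n * n) + n * (n * n) by noncomm_ring, n4]
      push_cast
      noncomm_ring
    · rw [show (1 + n) ^ 4 = 1 + (n + 2) * (2 * n + 2 * (n * n) + n * (n * n)) by noncomm_ring, n4]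
      push_cast
      noncomm_ring
  obtain ⟨g, g1, g2, g3, g4⟩ : ∃ g ∈ D, g * E 0 0 = g ∧ (E 0 0 + E i i) * g = 0 ∧ ∀ j, j ≠ 0 → j ≠ i → E j 0 = g := by
    by_cases hj : ∃ j, j ≠ 0 ∧ j ≠ i
    · obtain ⟨j, j1, j2⟩ := hj
      refine ⟨E j 0, hD _ _, h.mul_eq _ _ _, by rw [add_mul, h.mul, h.mul, if_neg j1.symm, if_neg j2.symm, add_zero],
        fun j' j3 j4 => ?_⟩
      rw [show j' = j from Fin.ext (by
        have := j.2
        have := j'.2
        simp only [hi, ne_eq, Fin.ext_iff, Fin.val_zero, Fin.val_last] at j1 j2 j3 j4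
        omega)]
    · exact ⟨0, zero_mem _, zero_mul _, mul_zero _, fun j j1 j2 => absurd ⟨j, j1, j2⟩ hj⟩
  refine card_le_col h hD (D ⊓ C1 (s : A)).toAddSubgroup (v := E 0 0 + g) (o := 0) (by rw [add_mul, g2, h.mul_eq])
    (fun x hx => mul_mem hx.1 (add_mem (hD _ _) g1)) (fun x hx hv => ?_) id fun _ _ j hj => absurd rfl (hj j)
  have x1 : x * n = n * x := by
    have h1 := mem_C1.1 hx.2
    rwa [hsv, mul_add, add_mul, mul_one, one_mul, add_right_inj] at h1
  have x2 : x * (E 0 0 + E i i) = (E 0 0 + E i i) * x := by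
    have h1 : x * (n * n) = n * n * x := by rw [← mul_assoc, x1, mul_assoc, x1, mul_assoc]
    rwa [n3, mul_add x, add_mul, ← mul_assoc, ← mul_assoc, cen_comm hτc x, mul_assoc, mul_assoc, mul_assoc, mul_assoc, x1,
      add_left_inj, Units.mul_right_inj] at h1
  have x3 : x * E 0 0 = 0 := by
    have h1 : x * ((E 0 0 + E i i) * (E 0 0 + g)) = 0 := by rw [← mul_assoc, x2, mul_assoc, hv, mul_zero]
    rwa [mul_add _ _ g, g3, add_zero, add_mul, h.mul_eq, h.mul, if_neg hne.symm, add_zero] at h1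
  have x4 : x * E i 0 = 0 := by
    have h1 : x * (n * E 0 0) = 0 := by rw [← mul_assoc, x1, mul_assoc, x3, mul_zero]
    rwa [n1, mul_add, ← mul_assoc, cen_comm hτc, mul_assoc, x3, mul_zero, add_zero, hb, ← mul_assoc, cen_comm hκc,
      mul_assoc, Units.mul_right_eq_zero] at h1
  rw [mul_add, x3, zero_add] at hv
  rw [← mul_one x, ← h.sum, Finset.mul_sum]
  refine Finset.sum_eq_zero fun j _ => ?_
  rw [← h.mul_eq j 0 j, ← mul_assoc]
  by_cases j1 : j = 0
  · rw [j1, x3, zero_mul]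
  by_cases j2 : j = i
  · rw [j2, x4, zero_mul]
  · rw [g4 j j1 j2, hv, zero_mul]

section diag

variable {E : Fin 2 → Fin 2 → A}

/-- diagonal matrices -/
def dg (E : Fin 2 → Fin 2 → A) (a b : A) : A := a * E 0 0 + b * E 1 1

variable (h : MU0 E)
include h

omit [StarRing A] [Finite A] in
theorem dg_same (a : A) : dg E a a = a := by rw [dg, ← mul_add, ← Fin.sum_univ_two fun i => E i i, h.sum, mul_one]

omit [StarRing A] [Finite A] in
theorem dg_zero (a b : A) (j : Fin 2) : dg E a b * E 0 j = a * E 0 j := by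
  rw [dg, add_mul, mul_assoc, mul_assoc, h.mul_eq, h.mul, if_neg (by decide), mul_zero, add_zero]

omit [StarRing A] [Finite A] in
theorem dg_one (a b : A) (j : Fin 2) : dg E a b * E 1 j = b * E 1 j := by
  rw [dg, add_mul, mul_assoc, mul_assoc, h.mul_eq, h.mul, if_neg (by decide), mul_zero, zero_add]

omit [StarRing A] [Finite A] in
theorem dg_mul (a b : A) {a' b' : A} (ha : a' ∈ CE E) (hb : b' ∈ CE E) :
    dg E a b * dg E a' b' = dg E (a * a') (b * b') := by
  conv_lhs => rhs; rw [dg]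
  rw [mul_add, mem_CE.1 ha, mem_CE.1 hb, ← mul_assoc, ← mul_assoc, dg_zero h, dg_one h, mul_assoc, mul_assoc,
    ← mem_CE.1 ha, ← mem_CE.1 hb, dg, mul_assoc, mul_assoc]

omit h [Finite A] in
theorem star_dg (hs : ∀ i j, star (E i j) = E j i) {a b : A} (ha : a ∈ CE E) (hb : b ∈ CE E) :
    star (dg E a b) = dg E (star a) (star b) := by
  rw [dg, star_add, star_mul, star_mul, hs, hs, dg, mem_CE.1 (star_CE (σ := id) hs ha), mem_CE.1 (star_CE (σ := id) hs hb)]

/-- the element `diag (lam, lam⁻¹)` -/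
theorem exists_diag (hs : ∀ i j, star (E i j) = E j i) {lam : A} (hc : lam ∈ Subring.center A) (hu : lam * star lam = 1)
    (hd : IsUnit (lam - star lam)) {G : Subgroup Aˣ} (hG : ∀ u : Aˣ, (u : A) * star (u : A) = 1 → u ∈ G) {B : Subring A}
    (hC : Subring.center A ≤ B) (hE : ∀ i j, E i j ∈ B) : ∃ s ∈ ⁅G, G⁆, (s : A) ∈ B ∧ (∀ r, lam ^ r = 1 → s ^ r = 1) ∧
      (∀ D : Subring A, (∀ i j, E i j ∈ D) →
        Nat.card ↥(D ⊓ C1 (s : A)) ≤ Nat.card ↥(D ⊓ CE E) ^ 2 ∧ uu (D ⊓ C1 (s : A)) ≤ uu (D ⊓ CE E) ^ 2) ∧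
      ∀ z v : Aˣ, (z : A) ∈ Subring.center A → IsUnit ((z : A) - 1) → v * s = z * s * v → z ^ 2 = 1 := by
  have cE : ∀ {x : A}, x ∈ Subring.center A → x ∈ CE E := fun hx => mem_CE.2 fun i j => (cen_comm hx _).symm
  have hc' := star_cen hc
  have hu' := mul_eq_one_comm.1 hu
  have t1 : dg E lam 1 * star (dg E lam 1) = 1 := by
    rw [star_dg hs (cE hc) (one_mem _), star_one, dg_mul h _ _ (cE hc') (one_mem _), hu, one_mul, dg_same h]
  have w0 : star (E 0 1 + E 1 0) = E 0 1 + E 1 0 := by rw [star_add, hs, hs, add_comm]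
  have w1 : ∀ a b, a ∈ Subring.center A → b ∈ Subring.center A →
      (E 0 1 + E 1 0) * dg E a b * (E 0 1 + E 1 0) = dg E b a := fun a b ha hb => by
    rw [mul_assoc, mul_add (dg E a b), dg_zero h, dg_one h, mul_add, ← mul_assoc, ← mul_assoc, cen_comm ha, cen_comm hb,
      mul_assoc, mul_assoc, add_mul, add_mul, h.mul_eq, h.mul_eq, h.mul, h.mul, if_neg (by decide), if_neg (by decide),
      zero_add, add_zero, dg, add_comm]
  have w2 : (E 0 1 + E 1 0) * star (E 0 1 + E 1 0) = 1 := by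
    have h1 := w1 1 1 (one_mem _) (one_mem _)
    rw [dg_same h, mul_one] at h1
    rw [w0, h1]
  have hsv : ((⁅mkU _ t1, mkU _ w2⁆ : Aˣ) : A) = dg E lam (star lam) := by
    change dg E lam 1 * (E 0 1 + E 1 0) * star (dg E lam 1) * star (E 0 1 + E 1 0) = _
    rw [w0, star_dg hs (cE hc) (one_mem _), star_one, mul_assoc, mul_assoc, ← mul_assoc (E 0 1 + E 1 0),
      w1 _ _ hc' (one_mem _), dg_mul h _ _ (one_mem _) (cE hc'), mul_one, one_mul]
  refine ⟨_, Subgroup.commutator_mem_commutator (hG (mkU _ t1) t1) (hG (mkU _ w2) w2), ?_, fun r hr => Units.ext ?_, fun D hD => ?_,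
    fun z v hz hz' e => ?_⟩
  · exact hsv ▸ add_mem (mul_mem (hC hc) (hE _ _)) (mul_mem (hC hc') (hE _ _))
  · have h1 : ∀ j, dg E lam (star lam) ^ j = dg E (lam ^ j) (star lam ^ j) := fun j => by
      induction j with
      | zero => rw [pow_zero, pow_zero, pow_zero, dg_same h]
      | succ j ih => rw [pow_succ, ih, dg_mul h _ _ (cE hc) (cE hc'), pow_succ, pow_succ]
    rw [Units.val_pow_eq_pow_val, hsv, h1, ← star_pow, hr, star_one, dg_same h, Units.val_one]
  · rw [hsv]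
    have hsy : star (dg E lam (star lam)) = dg E (star lam) lam := by rw [star_dg hs (cE hc) (cE hc'), star_star]
    have l0 : E 0 0 * dg E lam (star lam) = lam * E 0 0 := by
      rw [← star_star (E 0 0 * _), star_mul, hsy, hs, dg_zero h, star_mul, star_star, hs, cen_comm hc]
    have l1 : E 1 1 * dg E lam (star lam) = star lam * E 1 1 := by
      rw [← star_star (E 1 1 * _), star_mul, hsy, hs, dg_one h, star_mul, hs, cen_comm hc']
    have key : ∀ x ∈ C1 (dg E lam (star lam)), x = dg E (coef E x 0 0) (coef E x 1 1) := fun x hx => by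
      have h1 := mem_C1.1 hx
      have h2 : E 0 0 * x * E 1 1 = 0 := hd.mul_right_eq_zero.1 (by
        rw [sub_mul, ← mul_assoc, ← mul_assoc, ← l0, mul_assoc _ _ x, ← h1, ← cen_comm hc', mul_assoc, mul_assoc,
          dg_one h, mul_assoc, mul_assoc, cen_comm hc', sub_self])
      have h3 : E 1 1 * x * E 0 0 = 0 := hd.mul_right_eq_zero.1 (by
        rw [sub_mul, ← mul_assoc (star lam), ← mul_assoc (star lam), ← l1, mul_assoc _ _ x, ← h1, ← cen_comm hc, mul_assoc,
          mul_assoc, mul_assoc, mul_assoc, dg_zero h, cen_comm hc, sub_self])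
      conv_lhs => rw [h.expand x]
      rw [Fin.sum_univ_two, Fin.sum_univ_two, Fin.sum_univ_two, h.coef_mul x 0 1, h.coef_mul x 1 0, h2, h3, add_zero,
        zero_add, dg]
    constructor
    · rw [sq, ← Nat.card_prod]
      exact Nat.card_le_card_of_injective (fun x => (⟨coef E x 0 0, coef_mem hD x.2.1 _ _, coef_CE h _ _ _⟩,
        ⟨coef E x 1 1, coef_mem hD x.2.1 _ _, coef_CE h _ _ _⟩)) fun x y e => Subtype.ext (by
          rw [key x x.2.2, key y y.2.2, Subtype.mk.inj (Prod.mk.inj e).1, Subtype.mk.inj (Prod.mk.inj e).2])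
    · have k2 : ∀ x ∈ C1 (dg E lam (star lam)), x * star x = 1 →
          coef E x 0 0 * star (coef E x 0 0) = 1 ∧ coef E x 1 1 * star (coef E x 1 1) = 1 := fun x hx h1 => by
        have a0 := coef_CE h x 0 0
        have a1 := coef_CE h x 1 1
        have b0 := star_CE (σ := id) hs a0
        have b1 := star_CE (σ := id) hs a1
        rw [key x hx, star_dg hs a0 a1, dg_mul h _ _ b0 b1] at h1
        exact ⟨sub_eq_zero.1 (h.eq_zero (mem_CE.1 (sub_mem (mul_mem a0 b0) (one_mem _))) (i := 0) (j := 0)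
          (by rw [sub_mul, ← dg_zero h, h1, sub_self])), sub_eq_zero.1 (h.eq_zero
            (mem_CE.1 (sub_mem (mul_mem a1 b1) (one_mem _))) (i := 1) (j := 1) (by rw [sub_mul, ← dg_one h, h1, sub_self]))⟩
      rw [uu, uu, sq, ← Nat.card_prod]
      exact Nat.card_le_card_of_injective (fun x =>
        (⟨coef E x 0 0, ⟨coef_mem hD x.2.1.1 _ _, coef_CE h _ _ _⟩, (k2 x x.2.1.2 x.2.2).1⟩,
        ⟨coef E x 1 1, ⟨coef_mem hD x.2.1.1 _ _, coef_CE h _ _ _⟩, (k2 x x.2.1.2 x.2.2).2⟩)) fun x y e => Subtype.ext (by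
          rw [key x x.2.1.2, key y y.2.1.2, Subtype.mk.inj (Prod.mk.inj e).1, Subtype.mk.inj (Prod.mk.inj e).2])
  · have h1 : (v : A) * dg E lam (star lam) = z * dg E lam (star lam) * v := hsv ▸ congrArg Units.val e
    have h2 : ∀ a b x, x ∈ Subring.center A → dg E a b - x = dg E (a - x) (b - x) := fun a b x _ => by
      conv_lhs => rw [← dg_same h x]
      rw [dg, dg, dg, sub_mul, sub_mul]
      abel
    have h3 : (dg E lam (star lam) - lam) * (dg E lam (star lam) - star lam) = 0 := by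
      rw [h2 _ _ _ hc, h2 _ _ _ hc', dg_mul h _ _ (cE (sub_mem hc hc')) (cE (sub_mem hc' hc')), sub_self, sub_self,
        zero_mul, mul_zero, dg_same h]
    have h4 : ∀ x ∈ Subring.center A, (v : A) * (dg E lam (star lam) - x) = (z * dg E lam (star lam) - x) * v :=
      fun x hx => by rw [mul_sub, sub_mul, h1, cen_comm hx]
    have h5 : (z * dg E lam (star lam) - lam) * (z * dg E lam (star lam) - star lam) = 0 := by
      rw [← Units.mul_left_eq_zero v, mul_assoc, ← h4 _ hc', ← mul_assoc, ← h4 _ hc, mul_assoc, h3, mul_zero]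
    have c1 := mul_mem hz hc
    have c2 := mul_mem hz hc'
    rw [show z * dg E lam (star lam) = dg E (z * lam) (z * star lam) by rw [dg, dg, mul_add, mul_assoc, mul_assoc],
      h2 _ _ _ hc, h2 _ _ _ hc', dg_mul h _ _ (cE (sub_mem c1 hc')) (cE (sub_mem c2 hc'))] at h5
    have h6 := h.eq_zero (mem_CE.1 (cE (mul_mem (sub_mem c1 hc) (sub_mem c1 hc')))) (i := 0) (j := 0)
      (by rw [← dg_zero h, h5, zero_mul])
    have h7 := h.eq_zero (mem_CE.1 (cE (mul_mem (sub_mem c2 hc) (sub_mem c2 hc')))) (i := 1) (j := 1)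
      (by rw [← dg_one h, h5, zero_mul])
    rw [← sub_one_mul, (hz'.mul (IsUnit.of_mul_eq_one _ hu)).mul_right_eq_zero, sub_eq_zero] at h6
    rw [← sub_one_mul, (hz'.mul (IsUnit.of_mul_eq_one _ hu')).mul_left_eq_zero, sub_eq_zero] at h7
    refine Units.ext ?_
    rw [sq, Units.val_mul, ← mul_one (z * z : A), ← hu, mul_assoc, ← mul_assoc (z : A) lam, h6, ← mul_assoc, h7, hu,
      Units.val_one]

end diag

end Cfsg.Agent.N2C.Ten
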